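import Cfsg.Agent.Lib.GS.DihedralSub
import Cfsg.Agent.Lib.Involution.DihedralHom
import Cfsg.Agent.Lib.PSLTwo.KleinGroups

/-!
Groups with a normal Sylow 2-subgroup that is cyclic or dihedral, and cyclic quotient.
-/

set_option autoImplicit false

open Subgroup DihedralGroup

namespace Cfsg.Agent.Lib.TwoByCyclic

variable {H : Type*} [Group H]

/-- An element of odd order acting by powers on a cyclic 2-group fixes it. -/
theorem conj_fix_of_odd [Finite H] {c x : H} {n i : ℕ} (hx : orderOf x = 2 ^ n)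
    (hc : Odd (orderOf c)) (h : c * x * c⁻¹ = x ^ i) : c * x * c⁻¹ = x := by
  haveI : NeZero (2 ^ n) := ⟨pow_ne_zero _ two_ne_zero⟩
  have hit : ∀ k : ℕ, c ^ k * x * (c ^ k)⁻¹ = x ^ (i ^ k) := by
    intro k
    induction k with
    | zero => simp
    | succ k ih =>
      calc c ^ (k + 1) * x * (c ^ (k + 1))⁻¹ = c * (c ^ k * x * (c ^ k)⁻¹) * c⁻¹ := by
            rw [pow_succ']; group
        _ = (c * x * c⁻¹) ^ (i ^ k) := by rw [ih, conj_pow]
        _ = x ^ (i ^ (k + 1)) := by rw [h, ← pow_mul, pow_succ']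
  have h1 := hit (orderOf c)
  rw [pow_orderOf_eq_one, one_mul, inv_one, mul_one] at h1
  have h2 : (i ^ orderOf c : ℕ) ≡ 1 [MOD 2 ^ n] := by
    rw [← hx, ← pow_eq_pow_iff_modEq, pow_one]; exact h1.symm
  rw [← ZMod.natCast_eq_natCast_iff, Nat.cast_pow, Nat.cast_one] at h2
  obtain ⟨u, hu⟩ := IsUnit.of_pow_eq_one h2 hc.pos.ne'
  have h3 : u ^ orderOf c = 1 := Units.ext (by rw [Units.val_pow_eq_pow_val, hu, h2, Units.val_one])
  have h4 : orderOf u ∣ 1 := by
    have hco : Nat.Coprime (orderOf c) (2 ^ n) := (hc.coprime_two_right).pow_right n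
    have hd : orderOf u ∣ 2 ^ n := by
      refine (orderOf_dvd_of_pow_eq_one (ZMod.pow_totient u)).trans ?_
      rcases n with _ | n
      · simp
      · rw [Nat.totient_prime_pow Nat.prime_two (by omega)]
        simpa using pow_dvd_pow 2 (Nat.le_succ n)
    rw [← hco.gcd_eq_one]
    exact Nat.dvd_gcd (orderOf_dvd_of_pow_eq_one h3) hd
  rw [Nat.dvd_one, orderOf_eq_one_iff] at h4
  rw [h4, Units.val_one, ← Nat.cast_one, ZMod.natCast_eq_natCast_iff, ← hx,
    ← pow_eq_pow_iff_modEq, pow_one] at hu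
  rw [h, ← hu]

/-- An element of odd order normalizing a dihedral 2-group of order at least 8 centralizes it. -/
theorem conj_fix_dihedral [Finite H] {S : Subgroup H} [S.Normal] {n : ℕ} (hn : 2 ≤ n)
    (e : S ≃* DihedralGroup (2 ^ n)) {c : H} (hc : Odd (orderOf c)) :
    ∀ s ∈ S, c * s = s * c := by
  haveI : NeZero (2 ^ n) := ⟨pow_ne_zero _ two_ne_zero⟩
  have h4 : 4 ≤ 2 ^ n := le_trans (by norm_num) (Nat.pow_le_pow_right (by norm_num) hn)
  set x := e.symm (r 1) with hx
  set y := e.symm (sr 0) with hy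
  have hrot : ∀ i : ZMod (2 ^ n), e.symm (r i) = x ^ i.val := by
    intro i
    rw [hx, ← map_pow, r_one_pow, ZMod.natCast_zmod_val]
  have href : ∀ i : ZMod (2 ^ n), e.symm (sr i) = y * x ^ i.val := by
    intro i
    rw [hy, ← hrot, ← map_mul, sr_mul_r, zero_add]
  have hox : orderOf (x : H) = 2 ^ n := by
    rw [Subgroup.orderOf_coe, hx, MulEquiv.orderOf_eq, orderOf_r_one]
  have hconj : ∀ s : S, orderOf (⟨c * s * c⁻¹, ‹S.Normal›.conj_mem _ s.2 c⟩ : S) = orderOf s := by
    intro s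
    rw [← Subgroup.orderOf_coe, ← Subgroup.orderOf_coe]
    exact MulEquiv.orderOf_eq (MulAut.conj c) (s : H)
  have hcx : c * (x : H) * c⁻¹ = x := by
    set x' : S := ⟨c * (x : H) * c⁻¹, ‹S.Normal›.conj_mem _ x.2 c⟩ with hx'
    have ho : orderOf (e x') = 2 ^ n := by
      rw [MulEquiv.orderOf_eq, hconj, ← Subgroup.orderOf_coe, hox]
    obtain ⟨i, hi⟩ : ∃ i, e x' = r i := by
      rcases he : e x' with i | i
      · exact ⟨i, rfl⟩
      · rw [he, orderOf_sr] at ho; omega
    have : x' = x ^ i.val := by rw [← hrot, ← hi, MulEquiv.symm_apply_apply]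
    exact conj_fix_of_odd hox hc (i := i.val) (congrArg Subtype.val this)
  have hcx' : Commute c (x : H) := by
    rw [commute_iff_eq]
    exact mul_inv_eq_iff_eq_mul.mp hcx
  have hcy : c * (y : H) * c⁻¹ = y := by
    set y' : S := ⟨c * (y : H) * c⁻¹, ‹S.Normal›.conj_mem _ y.2 c⟩ with hy'
    obtain ⟨j, hj⟩ : ∃ j : ℕ, c * (y : H) * c⁻¹ = (y : H) * (x : H) ^ j := by
      rcases he : e y' with i | i
      · exfalso
        have h1 : y' = x ^ i.val := by rw [← hrot, ← he, MulEquiv.symm_apply_apply]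
        have h2 : (y : H) = (x : H) ^ i.val := by
          have h2' : c * (y : H) * c⁻¹ = (x : H) ^ i.val := congrArg Subtype.val h1
          calc (y : H) = c⁻¹ * (c * (y : H) * c⁻¹) * c := by group
            _ = c⁻¹ * ((x : H) ^ i.val * c) := by rw [h2', mul_assoc]
            _ = (x : H) ^ i.val := by rw [(hcx'.pow_right i.val).symm.eq, inv_mul_cancel_left]
        have h3 : y = e.symm (r i) := by rw [hrot]; exact Subtype.ext h2
        exact absurd (e.symm.injective (hy.symm.trans h3)) (by simp)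
      · refine ⟨i.val, ?_⟩
        have h1 : y' = y * x ^ i.val := by rw [← href, ← he, MulEquiv.symm_apply_apply]
        exact congrArg Subtype.val h1
    have hit : ∀ k : ℕ, c ^ k * (y : H) * (c ^ k)⁻¹ = (y : H) * (x : H) ^ (j * k) := by
      intro k
      induction k with
      | zero => simp
      | succ k ih =>
        calc c ^ (k + 1) * (y : H) * (c ^ (k + 1))⁻¹
            = c * (c ^ k * (y : H) * (c ^ k)⁻¹) * c⁻¹ := by rw [pow_succ']; group
          _ = (c * (y : H) * c⁻¹) * (c * (x : H) * c⁻¹) ^ (j * k) := by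
              rw [ih, conj_pow]; group
          _ = (y : H) * (x : H) ^ (j * (k + 1)) := by
              rw [hcx, hj, mul_assoc, ← pow_add]; ring_nf
    have h1 := hit (orderOf c)
    rw [pow_orderOf_eq_one, one_mul, inv_one, mul_one, left_eq_mul, ← orderOf_dvd_iff_pow_eq_one,
      hox] at h1
    have h2 : 2 ^ n ∣ j := ((hc.coprime_two_right).symm.pow_left n).dvd_of_dvd_mul_right h1
    rw [hj, mul_eq_left, ← orderOf_dvd_iff_pow_eq_one, hox]
    exact h2
  have hcy' : Commute c (y : H) := mul_inv_eq_iff_eq_mul.mp hcy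
  intro s hs
  rcases he : e ⟨s, hs⟩ with i | i
  · have h1 : (⟨s, hs⟩ : S) = x ^ i.val := by rw [← hrot, ← he, MulEquiv.symm_apply_apply]
    have h2 : s = (x : H) ^ i.val := congrArg Subtype.val h1
    rw [h2]; exact (hcx'.pow_right _).eq
  · have h1 : (⟨s, hs⟩ : S) = y * x ^ i.val := by rw [← href, ← he, MulEquiv.symm_apply_apply]
    have h2 : s = (y : H) * (x : H) ^ i.val := congrArg Subtype.val h1
    rw [h2]; exact (hcy'.mul_right (hcx'.pow_right _)).eq

/-- A subgroup of a dihedral 2-group is cyclic or dihedral. -/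
theorem subgroup_dihedral {n : ℕ} (K : Subgroup (DihedralGroup (2 ^ n))) :
    IsCyclic K ∨ ∃ m, 1 ≤ m ∧ Nonempty (K ≃* DihedralGroup (2 ^ m)) := by
  haveI : NeZero (2 ^ n) := ⟨pow_ne_zero _ two_ne_zero⟩
  by_cases hK : IsCyclic K
  · exact Or.inl hK
  right
  obtain ⟨i, j, hi, hj, hj0⟩ := Cfsg.Agent.Lib.GS.DihedralSub.exists_of_not_isCyclic K hK
  set ρ : Subgroup (DihedralGroup (2 ^ n)) := zpowers (r 1) with hρ
  have hρi : ρ.index = 2 := by
    have h := ρ.card_mul_index
    rw [hρ, Nat.card_zpowers, orderOf_r_one, DihedralGroup.nat_card, mul_comm 2] at h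
    exact Nat.eq_of_mul_eq_mul_left (by positivity) h
  haveI := Subgroup.normal_of_index_eq_two hρi
  have hmem : ∀ k : ZMod (2 ^ n), r k ∈ ρ := fun k =>
    mem_zpowers_iff.2 ⟨k.val, by rw [zpow_natCast, r_one_pow, ZMod.natCast_zmod_val]⟩
  have hnot : ∀ k : ZMod (2 ^ n), sr k ∉ ρ := by
    intro k hk
    obtain ⟨l, hl⟩ := mem_zpowers_iff.1 hk
    rw [r_one_zpow] at hl
    exact absurd hl (by simp)
  have hcyc : IsCyclic (K ⊓ ρ : Subgroup (DihedralGroup (2 ^ n))) :=
    isCyclic_of_injective (Subgroup.inclusion (inf_le_right : K ⊓ ρ ≤ ρ))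
      (Subgroup.inclusion_injective _)
  obtain ⟨⟨a, ha⟩, hgen⟩ := hcyc.exists_generator
  have hord : orderOf a = Nat.card (K ⊓ ρ : Subgroup (DihedralGroup (2 ^ n))) := by
    rw [← orderOf_eq_card_of_forall_mem_zpowers hgen, Subgroup.orderOf_mk]
  obtain ⟨m, -, hm⟩ := (Nat.dvd_prime_pow Nat.prime_two).1
    (show orderOf a ∣ 2 ^ n by
      have := Subgroup.orderOf_dvd_natCard _ (mem_inf.1 ha).2
      rwa [hρ, Nat.card_zpowers, orderOf_r_one] at this)
  have hm1 : 1 ≤ m := by
    rcases m with _ | m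
    · exfalso
      rw [pow_zero, orderOf_eq_one_iff] at hm
      obtain ⟨l, hl⟩ := mem_zpowers_iff.1 (hgen ⟨r j, mem_inf.2 ⟨hj, hmem j⟩⟩)
      have := congrArg Subtype.val hl
      simp only [SubgroupClass.coe_zpow, hm, one_zpow] at this
      exact hj0 (DihedralGroup.r.inj this.symm)
    · omega
  have hcard : Nat.card K = 2 * 2 ^ m := by
    have h1 : ρ.relIndex K ∣ 2 := by
      have h := Subgroup.relIndex_dvd_index_of_normal ρ K
      rwa [hρi] at h
    have h2 : ρ.relIndex K = 2 := by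
      rcases (Nat.dvd_prime Nat.prime_two).1 h1 with h | h
      · exact absurd (relIndex_eq_one.1 h hi) (hnot i)
      · exact h
    have h3 := (ρ.subgroupOf K).card_mul_index
    rw [show (ρ.subgroupOf K).index = 2 from h2, ← Subgroup.inf_subgroupOf_left,
      Nat.card_congr (Subgroup.subgroupOfEquivOfLe inf_le_left).toEquiv, ← hord, hm] at h3
    omega
  obtain ⟨k, hk⟩ : ∃ k, a = r k := by
    rcases a with k | k
    · exact ⟨k, rfl⟩
    · exact absurd (mem_inf.1 ha).2 (hnot k)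
  refine ⟨m, hm1, Cfsg.Agent.Lib.Involution.iso_dihedral (mem_inf.1 ha).1 hi hm (sr_mul_self i)
    ?_ ?_ hcard⟩
  · intro h
    exact hnot i (zpowers_le.2 (mem_inf.1 ha).2 h)
  · subst hk
    simp

/-- A noncyclic dihedral 2-subgroup contains a four-group. -/
theorem exists_four [Finite H] {S : Subgroup H} {m : ℕ} (hm : 1 ≤ m)
    (e : S ≃* DihedralGroup (2 ^ m)) :
    ∃ K : Subgroup H, K ≤ S ∧ Nat.card K = 4 ∧ ∀ k ∈ K, k ^ 2 = 1 := by
  haveI : NeZero (2 ^ m) := ⟨pow_ne_zero _ two_ne_zero⟩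
  set h0 : ZMod (2 ^ m) := ((2 ^ (m - 1) : ℕ) : ZMod (2 ^ m)) with hh0
  have hh : h0 + h0 = 0 := by
    rw [hh0, ← Nat.cast_add, ← two_mul, ← pow_succ', show m - 1 + 1 = m by omega, ZMod.natCast_self]
  have hne : h0 ≠ 0 := by
    rw [hh0, Ne, ZMod.natCast_eq_zero_iff]
    intro h
    have := Nat.le_of_dvd (by positivity) h
    have : 2 ^ (m - 1) < 2 ^ m := Nat.pow_lt_pow_right (by norm_num) (by omega)
    omega
  set a : DihedralGroup (2 ^ m) := r h0 with ha
  set b : DihedralGroup (2 ^ m) := sr 0 with hb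
  have haa : a ^ 2 = 1 := by rw [pow_two, ha, r_mul_r, hh, r_zero]
  have hab : b * a * b⁻¹ = a⁻¹ := by simp [ha, hb]
  set f := Cfsg.Agent.Lib.Involution.dihedralHom (m := 2) haa (sr_mul_self 0) hab with hf
  set g : DihedralGroup 2 →* H := (S.subtype.comp e.symm.toMonoidHom).comp f with hg
  have hinj : Function.Injective g := by
    rw [hg, MonoidHom.coe_comp]
    refine (Subtype.val_injective.comp e.symm.injective).comp ?_
    rw [injective_iff_map_eq_one]
    rintro (i | i) h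
    · have hoa : orderOf a = 2 := orderOf_eq_prime haa
        fun h' => hne (DihedralGroup.r.inj (h'.trans (r_zero).symm))
      rw [Cfsg.Agent.Lib.Involution.eq_zero_of_zpow_cast hoa i h, r_zero]
    · refine absurd h (Cfsg.Agent.Lib.Involution.notMem_of_sr (fun hmem => ?_) _)
      obtain ⟨l, hl⟩ := mem_zpowers_iff.1 hmem
      rw [ha, r_zpow] at hl
      exact absurd hl (by simp [hb])
  refine ⟨g.range, ?_, ?_, ?_⟩
  · rintro _ ⟨q, rfl⟩
    exact (e.symm (f q)).2
  · rw [show g.range = g.range from rfl, ← Nat.card_congr (g.ofInjective hinj).toEquiv,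
      DihedralGroup.nat_card]
  · rintro _ ⟨q, rfl⟩
    rw [← map_pow, show q ^ 2 = 1 from by revert q; decide, map_one]

/-- A group with a normal cyclic or dihedral Sylow 2-subgroup, cyclic quotient and
self-centralizing four-groups is cyclic, dihedral or `A₄`. -/
theorem two_by_cyclic [Finite H] (S : Sylow 2 H) [(S : Subgroup H).Normal]
    (hq : IsCyclic (H ⧸ (S : Subgroup H)))
    (hS : IsCyclic (S : Subgroup H) ∨
      ∃ m, 1 ≤ m ∧ Nonempty ((S : Subgroup H) ≃* DihedralGroup (2 ^ m)))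
    (hall : (¬ IsCyclic (S : Subgroup H)) → ∀ K : Subgroup H, Nat.card K = 4 →
      (∀ k ∈ K, k ^ 2 = 1) → ∀ x : H, (∀ k ∈ K, x * k = k * x) → x ∈ K) :
    IsCyclic H ∨ (∃ n : ℕ, Nonempty (H ≃* DihedralGroup (2 ^ n))) ∨
      Nonempty (H ≃* alternatingGroup (Fin 4)) := by
  haveI : Fact (Nat.Prime 2) := ⟨Nat.prime_two⟩
  set T : Subgroup H := (S : Subgroup H) with hT
  have hqo : Odd (Nat.card (H ⧸ T)) := by
    rw [← Subgroup.index_eq_card, ← Nat.not_even_iff_odd, even_iff_two_dvd]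
    exact S.not_dvd_index
  obtain ⟨g, hg⟩ := hq.exists_generator
  obtain ⟨c0, hc0⟩ := QuotientGroup.mk'_surjective T g
  obtain ⟨v, o, ho, hvo⟩ := Nat.exists_eq_two_pow_mul_odd (orderOf_pos c0).ne'
  set c := c0 ^ (2 ^ v) with hc
  have hco : orderOf c = o := by
    rw [hc, orderOf_pow, hvo, Nat.gcd_mul_right_left, Nat.mul_div_cancel_left _ (by positivity)]
  have hcg : orderOf (QuotientGroup.mk' T c) = Nat.card (H ⧸ T) := by
    rw [hc, map_pow, hc0, orderOf_pow, orderOf_eq_card_of_forall_mem_zpowers hg,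
      (show Nat.Coprime (Nat.card (H ⧸ T)) (2 ^ v) from hqo.coprime_two_right.pow_right v),
      Nat.div_one]
  have hqd : Nat.card (H ⧸ T) ∣ orderOf c := hcg ▸ orderOf_map_dvd _ _
  have hcodd : Odd (orderOf c) := hco.symm ▸ ho
  have hcardH : Nat.card H = Nat.card (H ⧸ T) * Nat.card T := Subgroup.card_eq_card_quotient_mul_card_subgroup T
  have hself : (¬ IsCyclic T) → ∀ K : Subgroup H, Nat.card K = 4 → (∀ k ∈ K, k ^ 2 = 1) →
      ∀ x : H, Odd (orderOf x) → (∀ k ∈ K, x * k = k * x) → x = 1 := by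
    intro hnc K hK hK2 x hx hcomm
    have h1 : orderOf x ∣ 2 := orderOf_dvd_of_pow_eq_one (hK2 x (hall hnc K hK hK2 x hcomm))
    exact orderOf_eq_one_iff.1 (Nat.dvd_one.1 (hx.coprime_two_right.gcd_eq_one ▸ Nat.dvd_gcd dvd_rfl h1))
  by_cases hTc : IsCyclic T
  · left
    obtain ⟨⟨s, hs⟩, hsgen⟩ := hTc.exists_generator
    have hos : orderOf s = Nat.card T := by
      rw [← orderOf_eq_card_of_forall_mem_zpowers hsgen, Subgroup.orderOf_mk]
    obtain ⟨n, hn⟩ := IsPGroup.iff_card.1 S.2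
    obtain ⟨i, hi⟩ := Submonoid.mem_powers_iff _ _ |>.1
      (mem_powers_iff_mem_zpowers.2 (hsgen ⟨c * s * c⁻¹, ‹T.Normal›.conj_mem _ hs c⟩))
    have hfix := conj_fix_of_odd (n := n) (i := i) (hos.trans hn) hcodd
      (congrArg Subtype.val hi).symm
    have hcomm : Commute s c := (mul_inv_eq_iff_eq_mul.mp hfix).symm
    refine isCyclic_of_orderOf_eq_card (s * c) (Nat.dvd_antisymm (orderOf_dvd_natCard _) ?_)
    rw [hcomm.orderOf_mul_eq_mul_orderOf_of_coprime, hcardH, mul_comm, hos]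
    · exact Nat.mul_dvd_mul_left _ hqd
    · rw [hos, hn]; exact hcodd.coprime_two_left.pow_left n
  obtain ⟨m, hm, ⟨e⟩⟩ := hS.resolve_left hTc
  have hfinish : Nat.card (H ⧸ T) = 1 → ∃ n : ℕ, Nonempty (H ≃* DihedralGroup (2 ^ n)) := by
    intro h
    have htop : T = ⊤ := Subgroup.eq_top_of_card_eq _ (by rw [hcardH, h, one_mul])
    exact ⟨m, ⟨(Subgroup.topEquiv.symm.trans (MulEquiv.subgroupCongr htop.symm)).trans e⟩⟩
  rcases Nat.lt_or_ge m 2 with hlt | hge
  · obtain rfl : m = 1 := by omega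
    have hcT : Nat.card T = 4 := by rw [Nat.card_congr e.toEquiv, DihedralGroup.nat_card]; norm_num
    have hexp : ∀ k ∈ T, k ^ 2 = 1 := by
      intro k hk
      have h1 : (e ⟨k, hk⟩) ^ 2 = 1 := by
        generalize e ⟨k, hk⟩ = q
        revert q
        decide
      rw [← map_pow, map_eq_one_iff _ e.injective] at h1
      exact congrArg Subtype.val h1
    set φ := MulAut.conjNormal (H := T) c with hφ
    have hσ : orderOf (MulAut.toPerm T φ) ∣ 24 := by
      have := orderOf_dvd_natCard (MulAut.toPerm T φ)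
      rwa [Nat.card_perm, hcT] at this
    have hσ' : orderOf (MulAut.toPerm T φ) ∣ orderOf c :=
      (orderOf_map_dvd _ _).trans (orderOf_map_dvd _ _)
    have hσ3 : (MulAut.toPerm T φ) ^ 3 = 1 := by
      rw [← orderOf_dvd_iff_pow_eq_one]
      exact ((hcodd.of_dvd_nat hσ').coprime_two_right.pow_right 3).dvd_of_dvd_mul_right
        (m := 3) (by norm_num; exact hσ)
    have hc3 : c ^ 3 = 1 := by
      refine hself hTc T hcT hexp _ (hcodd.of_dvd_nat (orderOf_pow_dvd 3)) fun k hk => ?_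
      have h1 : MulAut.toPerm T (MulAut.conjNormal (H := T) (c ^ 3)) = 1 := by
        rw [map_pow, map_pow]; exact hσ3
      have h2 := congrArg Subtype.val (Equiv.congr_fun h1 ⟨k, hk⟩)
      change c ^ 3 * k * (c ^ 3)⁻¹ = k at h2
      exact mul_inv_eq_iff_eq_mul.mp h2
    rcases (Nat.dvd_prime Nat.prime_three).1 (hqd.trans (orderOf_dvd_of_pow_eq_one hc3)) with h | h
    · exact Or.inr (Or.inl (hfinish h))
    · exact Or.inr (Or.inr (Cfsg.Agent.Lib.PSLTwo.equiv_alt_four_of_klein ‹T.Normal› hcT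
        (fun k hk => by rw [← pow_two]; exact hexp k hk)
        (hall hTc T hcT hexp) (by rw [hcardH, h, hcT])))
  · obtain ⟨K, hKT, hK4, hK2⟩ := exists_four hm e
    have hc1 : c = 1 := hself hTc K hK4 hK2 c hcodd fun k hk => conj_fix_dihedral hge e hcodd k (hKT hk)
    exact Or.inr (Or.inl (hfinish (Nat.dvd_one.1 (by rw [← orderOf_eq_one_iff.2 hc1]; exact hqd))))

end Cfsg.Agent.Lib.TwoByCyclic
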